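import Mathlib.Tactic

/-! The numerical elimination. -/

set_option autoImplicit false

namespace CL.T12

/-- Sylow data for primes dividing the order exactly once. -/
def SylD (g d : ℕ) (cs : List ℕ) : Prop :=
  ∀ p, p.Prime → 3 < p → p ∣ g → ¬ p * p ∣ g → ∃ e f n, 1 < e ∧ e ∣ p - 1 ∧ g = n * (p * f * e) ∧
    n % p = 1 ∧ n ≠ 1 ∧ ¬ 3 ∣ f ∧ (2 ∣ f ↔ ∃ c ∈ cs, p ∣ c) ∧ (d = p → f = 1)

def tbl : List (ℕ × ℕ × ℕ) :=
  [(13, 7, 7), (29, 6, 7), (13, 9, 7), (23, 6, 91), (31, 7, 49), (113, 8, 7), (29, 10, 7), (29, 6, 343),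
    (47, 7, 287), (43, 7, 343), (23, 10, 91), (13, 9, 343), (97, 9, 49), (113, 12, 7), (307, 8, 77),
    (23, 12, 91), (13, 8, 2597), (97, 11, 49), (223, 13, 7), (197, 12, 49), (31, 6, 49), (19, 5, 77),
    (23, 5, 91), (13, 8, 7)]

def killB (g d : ℕ) (cs : List ℕ) : Bool :=
  tbl.any fun t => g == t.1 * (2 ^ t.2.1 * (3 * t.2.2)) && (List.range (t.2.2 + 1)).all fun f =>
    t.2.2 % f != 0 || (List.range (t.2.1 + 1)).all fun i => (List.range t.1).all fun e =>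
      !(1 < e && (t.1 - 1) % e == 0 && g % (t.1 * (2 ^ i * f) * e) == 0 &&
        g / (t.1 * (2 ^ i * f) * e) % t.1 == 1 && g / (t.1 * (2 ^ i * f) * e) != 1 && (decide (0 < i) == cs.any fun c => c % t.1 == 0) &&
        (d != t.1 || 2 ^ i * f == 1))

theorem tbl_ok : ∀ t ∈ tbl, t.1.Prime ∧ 3 < t.1 ∧ ¬ t.1 ∣ 2 ^ t.2.1 * (3 * t.2.2) ∧ Odd t.2.2 := by
  simp only [tbl, List.forall_mem_cons, List.not_mem_nil, false_imp_iff, implies_true]
  norm_num [Nat.odd_iff]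

theorem kill {g d : ℕ} {cs : List ℕ} (h : SylD g d cs) : killB g d cs = false := by
  by_contra e
  simp only [killB, Bool.not_eq_false, List.any_eq_true, Bool.and_eq_true, beq_iff_eq, List.all_eq_true,
    List.mem_range] at e
  obtain ⟨⟨p, a, m⟩, ht, hg, e⟩ := e
  obtain ⟨hp, p3, nd, om⟩ := tbl_ok _ ht
  dsimp only at *
  obtain ⟨e', f, n, e1, e2, e3, e4, e9, e5, e6, e7⟩ := h p hp p3 ⟨_, hg⟩ fun l =>
    nd (Nat.dvd_of_mul_dvd_mul_left hp.pos (hg ▸ l))
  have g0 : 0 < g := by rw [hg]; have := om.pos; have := hp.pos; positivity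
  have f0 : f ≠ 0 := by rintro rfl; simp at e5
  obtain ⟨i, f, of, rfl⟩ := Nat.exists_eq_two_pow_mul_odd f0
  have d1 : 2 ^ i * f ∣ 2 ^ a * (3 * m) := Nat.dvd_of_mul_dvd_mul_left hp.pos
    (hg ▸ e3 ▸ ⟨n * e', by ring⟩)
  have d2 : f ∣ m := ((Nat.Coprime.symm ((Nat.prime_three.coprime_iff_not_dvd).2 fun l =>
    e5 (l.mul_left _))).dvd_of_dvd_mul_left
      ((of.coprime_two_right.pow_right a).dvd_of_dvd_mul_left ((dvd_mul_left _ _).trans d1)))
  have d3 : i ≤ a := (Nat.pow_dvd_pow_iff_le_right one_lt_two).1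
    ((((Odd.mul (by decide) om).coprime_two_left).pow_left i).dvd_of_dvd_mul_right
      ((dvd_mul_right _ _).trans d1))
  have pos : 0 < p * (2 ^ i * f) * e' := Nat.pos_of_mul_pos_left (e3 ▸ g0)
  have := e f (Nat.lt_succ_of_le (Nat.le_of_dvd om.pos d2))
  simp only [Nat.mod_eq_zero_of_dvd d2, bne_self_eq_false, Bool.false_or, List.all_eq_true,
    List.mem_range] at this
  have := this i (by omega) e' (by have := Nat.le_of_dvd (by omega) e2; omega)
  have e8 : decide (0 < i) = cs.any fun c => c % p == 0 := by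
    rw [Bool.eq_iff_iff]
    simp only [decide_eq_true_eq, List.any_eq_true, beq_iff_eq, ← Nat.dvd_iff_mod_eq_zero, ← e6]
    exact ⟨fun l => (dvd_pow_self 2 l.ne').mul_right _, fun l => Nat.pos_of_ne_zero (by
      rintro rfl; exact absurd l (by simpa using of.not_two_dvd_nat))⟩
  rw [e8, e3, Nat.mul_div_cancel _ pos, Nat.mul_mod_left, Nat.mod_eq_zero_of_dvd e2] at this
  by_cases l : d = p
  · simp [e1, e4, e9, e7 l] at this
  · simp [e1, e4, e9, l] at this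

def col (d δ c : ℕ) : Bool :=
  1 + (d - δ) ^ 2 + (δ - d) ^ 2 + (d + 1 - δ) ^ 2 + (δ - (d + 1)) ^ 2 ≤ c

def o24 (x y : ℕ) : Bool := y ≤ x && (x - y) % 24 == 0

def w1 (A B C a b c u : ℕ) : Bool :=
  o24 (B + C + 3 * (b + c)) (A + 3 * (u + a)) && o24 (B + C + 3 * (u + a)) (A + 3 * (b + c))

def w3 (A B C a b c u : ℕ) : Bool := w1 A B C a b c u && w1 B A C b a c u && w1 C A B c a b u

def wAll (d a b c u : ℕ) : Bool :=
  o24 (16 * d + 8) (4 * (a + b + c) + 3 * u) && o24 (8 + 2 * (a + b + c) + 3 * u) (8 * d) &&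
    (w3 a b c a b c u || w3 a c b a b c u || w3 b a c a b c u || w3 b c a a b c u || w3 c a b a b c u ||
      w3 c b a a b c u)

/-- candidate centraliser order -/
def okc (g d N δ n a : ℕ) : Bool :=
  col d a (N * a / (n * δ)) && N * a % (n * δ) == 0 && g % (N * a / (n * δ)) == 0

def fin2 (g d a b c u c1 c2 c3 cu : ℕ) : Bool :=
  !([c1, c2, c3, cu].any (fun c => g / c % 2 == 1) && wAll d a b c u) || killB g d [c1, c2, c3, cu]

def ext (mode c : ℕ) : Bool :=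
  if mode == 0 then 3 * 2 ^ 40 % c == 0 else if mode == 1 then c % 24 == 0 else c % 384 == 0

def lev2 (mode c1 n1 n2 n3 δ d g : ℕ) : Bool :=
  (List.range 68).all fun j2 => let b := 6 * ((d + 200) / 6 - j2)
    !(okc g d (n1 * c1) δ n2 b && ext mode (n1 * c1 * b / (n2 * δ))) ||
  (List.range 68).all fun j3 => let c := 6 * ((d + 200) / 6 - j3)
    !(okc g d (n1 * c1) δ n3 c && ext mode (n1 * c1 * c / (n3 * δ)) && (δ + b + c) % 12 == 0) ||
    if n1 == 2 then fin2 g d δ b c δ c1 (n1 * c1 * b / (n2 * δ)) (n1 * c1 * c / (n3 * δ)) c1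
    else if n2 == 2 then fin2 g d δ b c b c1 (n1 * c1 * b / (n2 * δ)) (n1 * c1 * c / (n3 * δ))
      (n1 * c1 * b / (n2 * δ))
    else if n3 == 2 then fin2 g d δ b c c c1 (n1 * c1 * b / (n2 * δ)) (n1 * c1 * c / (n3 * δ))
      (n1 * c1 * c / (n3 * δ))
    else (List.range 401).all fun j => let u := d + 200 - j
      !(okc g d (n1 * c1) δ 1 u && n1 * c1 * u / δ % 3 != 0 && n1 * c1 * u / δ % 8 == 0) ||
      fin2 g d δ b c u c1 (n1 * c1 * b / (n2 * δ)) (n1 * c1 * c / (n3 * δ)) (n1 * c1 * u / δ)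

def lev1 (mode c1 n1 n2 n3 : ℕ) : Bool :=
  (List.range (n1 * c1 / 6 + 1)).all fun K =>
    3 * (n1 * c1) ^ 2 % (4 * (6 * K) ^ 2) != 0 ||
    (List.range 111).all fun α => let d := 6 * K + α - 55
      let g := 3 * (n1 * c1) ^ 2 / (4 * (6 * K) ^ 2) * (d * (d + 1))
      !(d % 3 == 1 && 1 < d && col d (6 * K) c1 && g % 5 != 0 && g % 9 != 0 && g % c1 == 0 &&
        (mode != 0 || g % 7 == 0)) || lev2 mode c1 n1 n2 n3 (6 * K) d g

def lev0 (mode c1 : ℕ) : Bool :=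
  lev1 mode c1 1 1 1 && lev1 mode c1 2 1 1 && lev1 mode c1 1 2 1 && lev1 mode c1 1 1 2

theorem t0 : ∀ k < 12, lev0 0 (3 * 2 ^ k) = true := by decide +kernel

theorem t1 : lev0 1 672 = true ∧ lev0 1 2184 = true := by decide +kernel

theorem t2 : lev0 2 2688 = true := by decide +kernel

def o12 (x y : ℕ) : Bool := y ≤ x && (x - y) % 12 == 0

def one (c : ℕ) : Bool :=
  (List.range (c / 6 + 1)).all fun K => 3 * c ^ 2 % (2 * (6 * K) ^ 2) != 0 ||
    (List.range 111).all fun α => let d := 6 * K + α - 55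
      let g := 3 * c ^ 2 / (2 * (6 * K) ^ 2) * (d * (d + 1))
      !(1 < d && col d (6 * K) c && g % 5 != 0 && g % 9 != 0 && g % c == 0 && g % 7 == 0) ||
      (List.range 401).all fun j => let u := d + 200 - j
      !(okc g d c (6 * K) 1 u && c * u / (6 * K) % 3 != 0 &&
        [c, c * u / (6 * K)].any (fun c => g / c % 2 == 1) && o12 (8 * d + 4) (24 * K + 3 * u) &&
        o12 (4 + 12 * K + 3 * u) (4 * d) && o12 (24 * K) (3 * u) && o12 (3 * u) (12 * K)) ||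
      killB g d [c, c * u / (6 * K)]

theorem t3 : one 336 = true ∧ one 192 = true := by decide +kernel

end CL.T12
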